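import Cfsg.Agent.Lib.Helper63.BB.Defs
import Cfsg.Agent.S0113

set_option autoImplicit false

/-! # S4144 "BB", package [P2]

The theorem for `p = 2`: a `2`-group of maximal class has a cyclic subgroup of index `2`. -/

namespace Cfsg.Agent.Lib.Helper1.BB

open Cfsg.Agent.Lib.Helper63.BB

universe u

/-- `card V * V.relIndex H = card H` for `V ≤ H` -/
theorem card_mul_relIndex_of_le {X : Type u} [Group X] {V H : Subgroup X} (h : V ≤ H) :
    Nat.card V * V.relIndex H = Nat.card H := by
  have h1 := Subgroup.relIndex_mul_relIndex (⊥ : Subgroup X) V H bot_le h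
  rwa [Subgroup.relIndex_bot_left, Subgroup.relIndex_bot_left] at h1

theorem pkgTwo : PkgTwo.{u} := by
  intro X _ _ n hn hcard hclass H
  obtain ⟨V, hV⟩ : ∃ V : Subgroup X, V = Subgroup.closure {y : X | ∃ h ∈ H, y = h ^ 2} :=
    ⟨_, rfl⟩
  rw [← hV]
  have hVH : V ≤ H := by
    rw [hV, Subgroup.closure_le]
    rintro y ⟨h, hh, rfl⟩
    exact H.pow_mem hh 2
  have hmul := card_mul_relIndex_of_le hVH
  have hVpos : 0 < Nat.card V := Nat.card_pos
  by_cases hn3 : 3 ≤ n
  · obtain ⟨C, hCcyc, hCidx⟩ := Cfsg.Agent.S0113.result n hn3 hcard hclass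
    have : C.Normal := Subgroup.normal_of_index_eq_two hCidx
    have : IsCyclic C := hCcyc
    have : IsCyclic (H ⊓ C : Subgroup X) := Subgroup.isCyclic_of_le inf_le_right
    obtain ⟨g, hg⟩ := IsCyclic.exists_generator (α := (H ⊓ C : Subgroup X))
    have hc : Nat.card (H ⊓ C : Subgroup X) = orderOf (g : X) := by
      rw [← orderOf_eq_card_of_forall_mem_zpowers hg, Subgroup.orderOf_coe]
    have hgH : (g : X) ∈ H := (Subgroup.mem_inf.mp g.2).1
    -- index of `H ⊓ C` in `H`
    have hr : (H ⊓ C).relIndex H ≤ 2 := by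
      rw [Subgroup.inf_relIndex_left]
      have hd : C.relIndex H ∣ C.index := Subgroup.relIndex_dvd_index_of_normal C H
      rw [hCidx] at hd
      exact Nat.le_of_dvd (by norm_num) hd
    have hmul2 := card_mul_relIndex_of_le (inf_le_left : H ⊓ C ≤ H)
    -- the square of the generator
    have hsq : (g : X) ^ 2 ∈ V := by
      rw [hV]
      exact Subgroup.subset_closure ⟨(g : X), hgH, rfl⟩
    have hz : Nat.card (Subgroup.zpowers ((g : X) ^ 2)) ≤ Nat.card V :=
      Subgroup.card_le_of_le (by rw [Subgroup.zpowers_le]; exact hsq)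
    rw [Nat.card_zpowers] at hz
    have ho : orderOf (g : X) ≤ 2 * orderOf ((g : X) ^ 2) := by
      have hd : orderOf (g : X) ∣ 2 * orderOf ((g : X) ^ 2) := by
        apply orderOf_dvd_of_pow_eq_one
        rw [pow_mul, pow_orderOf_eq_one]
      exact Nat.le_of_dvd (Nat.mul_pos (by norm_num) (orderOf_pos _)) hd
    have h4 : Nat.card H ≤ 4 * Nat.card V := by
      rw [← hmul2, hc]
      calc orderOf (g : X) * (H ⊓ C).relIndex H ≤ (2 * orderOf ((g : X) ^ 2)) * 2 :=
            Nat.mul_le_mul ho hr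
        _ ≤ (2 * Nat.card V) * 2 := by
            exact Nat.mul_le_mul (Nat.mul_le_mul le_rfl hz) le_rfl
        _ = 4 * Nat.card V := by ring
    rw [← hmul] at h4
    have h5 : Nat.card V * V.relIndex H ≤ Nat.card V * 4 := by rw [mul_comm _ 4]; exact h4
    have h6 := Nat.le_of_mul_le_mul_left h5 hVpos
    norm_num
    exact h6
  · have hn2 : n = 2 := by omega
    subst hn2
    have h1 : V.relIndex H ≤ Nat.card H :=
      Nat.le_of_dvd Nat.card_pos (Subgroup.relIndex_dvd_card V H)
    have h2 : Nat.card H ≤ Nat.card X := Subgroup.card_le_card_group H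
    rw [hcard] at h2
    exact h1.trans h2

end Cfsg.Agent.Lib.Helper1.BB
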