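import Cfsg.Agent.Lib.Helper63.BB.Defs
import Cfsg.Agent.Lib.Helper59.MC.Struct
import Cfsg.Agent.Lib.Helper85.UnifElt

set_option autoImplicit false

/-! # S4144 "BB", package [UCH]

The commutator chain of a uniform element with a suitable `y` never dies early. -/

namespace Cfsg.Agent.Lib.Helper1.BB

open Cfsg.Agent.Lib.Helper63.MC Cfsg.Agent.Lib.Helper63.BB
open scoped commutatorElement

universe u

/-- images of two elements commute in the quotient when their commutator lies in `N` -/
theorem mk_comm_of_commutator_mem {X : Type u} [Group X] (N : Subgroup X) [N.Normal] (a g : X)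
    (h : ⁅a, g⁆ ∈ N) :
    (QuotientGroup.mk' N a) * (QuotientGroup.mk' N g) =
      (QuotientGroup.mk' N g) * (QuotientGroup.mk' N a) := by
  have h1 : (QuotientGroup.mk' N a) * (QuotientGroup.mk' N g) * (QuotientGroup.mk' N a)⁻¹ *
      (QuotientGroup.mk' N g)⁻¹ = 1 := by
    rw [← map_inv, ← map_inv, ← map_mul, ← map_mul, ← map_mul]
    rw [commutatorElement_def] at h
    exact (QuotientGroup.eq_one_iff _).2 h
  calc (QuotientGroup.mk' N a) * (QuotientGroup.mk' N g)
      = ((QuotientGroup.mk' N a) * (QuotientGroup.mk' N g) * (QuotientGroup.mk' N a)⁻¹ *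
          (QuotientGroup.mk' N g)⁻¹) * ((QuotientGroup.mk' N g) * (QuotientGroup.mk' N a)) := by
        group
    _ = (QuotientGroup.mk' N g) * (QuotientGroup.mk' N a) := by rw [h1, one_mul]

/-- if the images of `s`, `y` and of `A` commute with the image of `g`, and `s`, `y`, `A`
generate, then every image commutes with the image of `g` -/
theorem comm_of_gen {X : Type u} [Group X] {Q : Type u} [Group Q] (π : X →* Q) (s y g : X)
    (A : Subgroup X) (hgen : (⊤ : Subgroup X) ≤ Subgroup.zpowers s ⊔ (Subgroup.zpowers y ⊔ A))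
    (hs : π s * π g = π g * π s) (hy : π y * π g = π g * π y)
    (hA : ∀ a ∈ A, π a * π g = π g * π a) (x : X) : π x * π g = π g * π x := by
  have hle : Subgroup.zpowers s ⊔ (Subgroup.zpowers y ⊔ A) ≤
      (Subgroup.centralizer ({π g} : Set Q)).comap π := by
    refine sup_le ?_ (sup_le ?_ ?_)
    · rw [Subgroup.zpowers_le, Subgroup.mem_comap, Subgroup.mem_centralizer_iff]
      intro h hh
      rw [Set.mem_singleton_iff] at hh
      rw [hh]
      exact hs.symm
    · rw [Subgroup.zpowers_le, Subgroup.mem_comap, Subgroup.mem_centralizer_iff]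
      intro h hh
      rw [Set.mem_singleton_iff] at hh
      rw [hh]
      exact hy.symm
    · intro a ha
      rw [Subgroup.mem_comap, Subgroup.mem_centralizer_iff]
      intro h hh
      rw [Set.mem_singleton_iff] at hh
      rw [hh]
      exact (hA a ha).symm
  have hx : x ∈ (Subgroup.centralizer ({π g} : Set Q)).comap π :=
    hle (hgen (Subgroup.mem_top x))
  rw [Subgroup.mem_comap, Subgroup.mem_centralizer_iff] at hx
  exact (hx (π g) rfl).symm

theorem pkgUnifChain_of (hKB : PkgKBasic.{u}) (hKI : PkgKInj.{u}) : PkgUnifChain.{u} := by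
  intro X _ _ p hp n hn4 hcard hclass s hs
  have hpp : p.Prime := hp.out
  obtain ⟨hcardL, -⟩ := Cfsg.Agent.Lib.Helper59.MC.pkgStruct X p n (by omega) hcard hclass
  have hL1 : Nat.card (L X 1) = p ^ (n - 2) := by
    have h := hcardL 1 le_rfl (by omega)
    rwa [show n - 1 - 1 = n - 2 by omega] at h
  have hL2 : Nat.card (L X 2) = p ^ (n - 3) := by
    have h := hcardL 2 (by omega) (by omega)
    rwa [show n - 1 - 2 = n - 3 by omega] at h
  obtain ⟨hL1K, -, hKcard⟩ := hKB X p n hn4 hcard hclass 1 le_rfl (by omega)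
  have hpow1 : p ^ (n - 1) = p * p ^ (n - 2) := by
    rw [← pow_succ']
    congr 1
    omega
  have hpow0 : p ^ n = p * p ^ (n - 1) := by
    rw [← pow_succ']
    congr 1
    omega
  have hpow2 : p ^ (n - 2) = p * p ^ (n - 3) := by
    rw [← pow_succ']
    congr 1
    omega
  -- pick `y ∈ K 1 \ L 1`
  obtain ⟨y, hyK, hyL⟩ : ∃ y ∈ K X 1, y ∉ L X 1 := by
    by_contra h
    push Not at h
    have hle : K X 1 ≤ L X 1 := h
    have hc := Subgroup.card_le_of_le hle
    rw [hKcard, hL1, hpow1] at hc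
    have hpos : 0 < p ^ (n - 2) := pow_pos hpp.pos _
    have h2 := hpp.two_le
    nlinarith
  have hsK : s ∉ K X 1 := hs 1 le_rfl (by omega)
  have hgen1 : K X 1 ≤ Subgroup.zpowers y ⊔ L X 1 :=
    Cfsg.Agent.Lib.Helper85.UnifElt.le_zpowers_sup hL1K (by rw [hKcard, hL1, hpow1]) hyK hyL
  have hgen2 : (⊤ : Subgroup X) ≤ Subgroup.zpowers s ⊔ K X 1 :=
    Cfsg.Agent.Lib.Helper85.UnifElt.le_zpowers_sup le_top
      (by rw [Subgroup.card_top, hcard, hKcard, hpow0]) (Subgroup.mem_top s) hsK
  have hgen : (⊤ : Subgroup X) ≤ Subgroup.zpowers s ⊔ (Subgroup.zpowers y ⊔ L X 1) :=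
    hgen2.trans (sup_le_sup_left hgen1 _)
  -- the first commutator is outside `L 2`
  have hc1 : y⁻¹ * (s * y * s⁻¹) ∉ L X 2 := by
    intro hmem
    have hcen : ∀ a ∈ L X 1, ∀ g : X, (QuotientGroup.mk' (L X 2) a) * (QuotientGroup.mk' (L X 2) g) =
        (QuotientGroup.mk' (L X 2) g) * (QuotientGroup.mk' (L X 2) a) := by
      intro a ha g
      exact mk_comm_of_commutator_mem (L X 2) a g
        (Cfsg.Agent.Lib.Helper85.UnifElt.comm_mem_L ha g)
    have hsy : (QuotientGroup.mk' (L X 2) s) * (QuotientGroup.mk' (L X 2) y) =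
        (QuotientGroup.mk' (L X 2) y) * (QuotientGroup.mk' (L X 2) s) := by
      have h1 : (QuotientGroup.mk' (L X 2) y)⁻¹ * ((QuotientGroup.mk' (L X 2) s) *
          (QuotientGroup.mk' (L X 2) y) * (QuotientGroup.mk' (L X 2) s)⁻¹) = 1 := by
        rw [← map_inv, ← map_inv, ← map_mul, ← map_mul, ← map_mul]
        exact (QuotientGroup.eq_one_iff _).2 hmem
      calc (QuotientGroup.mk' (L X 2) s) * (QuotientGroup.mk' (L X 2) y)
          = (QuotientGroup.mk' (L X 2) y) * ((QuotientGroup.mk' (L X 2) y)⁻¹ *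
              ((QuotientGroup.mk' (L X 2) s) * (QuotientGroup.mk' (L X 2) y) *
                (QuotientGroup.mk' (L X 2) s)⁻¹)) * (QuotientGroup.mk' (L X 2) s) := by group
        _ = (QuotientGroup.mk' (L X 2) y) * (QuotientGroup.mk' (L X 2) s) := by
            rw [h1, mul_one]
    have hS : ∀ x : X, (QuotientGroup.mk' (L X 2) x) * (QuotientGroup.mk' (L X 2) s) =
        (QuotientGroup.mk' (L X 2) s) * (QuotientGroup.mk' (L X 2) x) :=
      comm_of_gen (QuotientGroup.mk' (L X 2)) s y s (L X 1) hgen rfl hsy.symm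
        (fun a ha => hcen a ha s)
    have hY : ∀ x : X, (QuotientGroup.mk' (L X 2) x) * (QuotientGroup.mk' (L X 2) y) =
        (QuotientGroup.mk' (L X 2) y) * (QuotientGroup.mk' (L X 2) x) :=
      comm_of_gen (QuotientGroup.mk' (L X 2)) s y y (L X 1) hgen hsy rfl
        (fun a ha => hcen a ha y)
    have hall : ∀ g x : X, (QuotientGroup.mk' (L X 2) x) * (QuotientGroup.mk' (L X 2) g) =
        (QuotientGroup.mk' (L X 2) g) * (QuotientGroup.mk' (L X 2) x) := fun g =>
      comm_of_gen (QuotientGroup.mk' (L X 2)) s y g (L X 1) hgen (hS g).symm (hY g).symm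
        (fun a ha => hcen a ha g)
    have hle : L X 1 ≤ L X 2 := by
      show ⁅L X 0, (⊤ : Subgroup X)⁆ ≤ _
      rw [Subgroup.commutator_le]
      intro a _ b _
      rw [← QuotientGroup.eq_one_iff (N := L X 2), commutatorElement_def]
      have h1 := hall b a
      have h2 : (QuotientGroup.mk' (L X 2) (a * b * a⁻¹ * b⁻¹)) = 1 := by
        rw [map_mul, map_mul, map_mul, map_inv, map_inv, h1]
        group
      exact h2
    have hc := Subgroup.card_le_of_le hle
    rw [hL1, hL2, hpow2] at hc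
    have hpos : 0 < p ^ (n - 3) := pow_pos hpp.pos _
    have h2 := hpp.two_le
    nlinarith
  refine ⟨y, ?_⟩
  have key : ∀ j, 1 ≤ j → j + 2 ≤ n → cs s y j ∈ L X j ∧ cs s y j ∉ L X (j + 1) := by
    intro j hj
    induction j, hj using Nat.le_induction with
    | base =>
      intro _
      have e : cs s y 1 = y⁻¹ * (s * y * s⁻¹) := rfl
      rw [e]
      refine ⟨?_, hc1⟩
      have e1 : y⁻¹ * (s * y * s⁻¹) = ⁅y⁻¹, s⁆ := by rw [commutatorElement_def, inv_inv]; group
      rw [e1]
      exact Cfsg.Agent.Lib.Helper85.UnifElt.comm_mem_L (i := 0) (Subgroup.mem_top _) s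
    | succ j hj ih =>
      intro hjn
      obtain ⟨ha, ha'⟩ := ih (by omega)
      have e : cs s y (j + 1) = (cs s y j)⁻¹ * (s * cs s y j * s⁻¹) := rfl
      rw [e]
      refine ⟨?_, ?_⟩
      · have e1 : (cs s y j)⁻¹ * (s * cs s y j * s⁻¹) = ⁅(cs s y j)⁻¹, s⁆ := by
          rw [commutatorElement_def, inv_inv]; group
        rw [e1]
        exact Cfsg.Agent.Lib.Helper85.UnifElt.comm_mem_L (Subgroup.inv_mem _ ha) s
      · exact hKI X p n hn4 hcard hclass j hj (by omega) s (hs j hj (by omega)) _ ha ha'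
  intro j hj hjn
  exact (key j hj hjn).2

end Cfsg.Agent.Lib.Helper1.BB
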