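import Cfsg.Agent.Lib.Helper63.BB.Defs
import Cfsg.Agent.Lib.Helper7.MC.Cover

set_option autoImplicit false

/-! # S4144 "BB", package [UEX]

Existence of uniform elements when there are at most `p` distinct two-step centralizers. -/

namespace Cfsg.Agent.Lib.Helper1.BB

open Cfsg.Agent.Lib.Helper63.MC Cfsg.Agent.Lib.Helper63.BB

universe u

theorem pkgUnifEx_of (hKB : PkgKBasic.{u}) : PkgUnifEx.{u} := by
  intro X _ _ p hp n hn4 hcard hclass hcase
  classical
  have hP : IsPGroup p X := IsPGroup.of_card hcard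
  have hK : ∀ i, 1 ≤ i → i + 3 ≤ n → K X i ≠ ⊤ := fun i h1 h3 =>
    (hKB X p n hn4 hcard hclass i h1 h3).2.1
  by_cases hnp : n ≤ p + 3
  · -- all the two-step centralizers
    have hFcard : ((Finset.Icc 1 (n - 3)).image (K X)).card ≤ p := by
      have h2 : ((Finset.Icc 1 (n - 3)).image (K X)).card ≤ (Finset.Icc 1 (n - 3)).card :=
        Finset.card_image_le
      have h3 : (Finset.Icc 1 (n - 3)).card = n - 3 := by simp
      omega
    have hFne : ∀ H ∈ (Finset.Icc 1 (n - 3)).image (K X), H ≠ ⊤ := by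
      intro H hH
      obtain ⟨i, hi, rfl⟩ := Finset.mem_image.mp hH
      rw [Finset.mem_Icc] at hi
      exact hK i hi.1 (by omega)
    obtain ⟨t, ht⟩ := Cfsg.Agent.Lib.Helper7.MC.pkgCover X p hP _ hFcard hFne
    refine ⟨t, ?_⟩
    intro i hi1 hi3
    exact ht (K X i) (Finset.mem_image.mpr ⟨i, Finset.mem_Icc.mpr ⟨hi1, by omega⟩, rfl⟩)
  · rcases hcase with h | ⟨hp3, hall⟩
    · exact absurd h hnp
    · have hn7 : 7 ≤ n := by omega
      have hFcard : (({K X 1, K X (n - 4), K X (n - 3)} : Finset (Subgroup X))).card ≤ p := by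
        have h1 : (({K X 1, K X (n - 4), K X (n - 3)} : Finset (Subgroup X))).card ≤ 3 :=
          Finset.card_le_three
        omega
      have hFne : ∀ H ∈ ({K X 1, K X (n - 4), K X (n - 3)} : Finset (Subgroup X)), H ≠ ⊤ := by
        intro H hH
        simp only [Finset.mem_insert, Finset.mem_singleton] at hH
        rcases hH with rfl | rfl | rfl
        · exact hK 1 le_rfl (by omega)
        · exact hK (n - 4) (by omega) (by omega)
        · exact hK (n - 3) (by omega) (by omega)
      obtain ⟨t, ht⟩ := Cfsg.Agent.Lib.Helper7.MC.pkgCover X p hP _ hFcard hFne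
      refine ⟨t, ?_⟩
      intro i hi1 hi3
      by_cases h5 : i + 5 ≤ n
      · rw [hall i hi1 h5]
        exact ht (K X 1) (by simp)
      · have hi : i = n - 4 ∨ i = n - 3 := by omega
        rcases hi with rfl | rfl
        · exact ht _ (by simp)
        · exact ht _ (by simp)

end Cfsg.Agent.Lib.Helper1.BB
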